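import Cfsg.Agent.H270.EPU.Tree
import Cfsg.Agent.H12.EP.Pars
import Cfsg.Agent.Lib.Cores

/-!
# Canonical parabolic subgroups, rank two, without root groups (helper270)

`exists_pars` : a finite simple group acting on a thick building of rank two with a system of Sylow `p`-groups
(`FixBN.Sys`) has the canonical parabolic subgroups `H12.EP.BT.Pars p`.
-/

set_option autoImplicit false
set_option linter.unusedSectionVars false

open scoped Pointwise

namespace Cfsg.Agent.H270.EPU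

open Cfsg.Agent.Tits.Core Cfsg.Agent.Tits.Core.Bldg Cfsg.Agent.Tits.Exchange Cfsg.Agent.Tits Cfsg.Agent.FixBN
open Subgroup

section core

variable {G : Type*} [Group G] (p : ℕ)

/-- the largest normal `p`-subgroup of a subgroup -/
noncomputable def OO (H : Subgroup G) : Subgroup G := (Cfsg.pCore p H).map H.subtype

variable {p}

theorem OO_le (H : Subgroup G) : OO p H ≤ H := by
  rintro _ ⟨x, _, rfl⟩
  exact x.2

theorem OO_isPGroup [Finite G] [Fact p.Prime] (H : Subgroup G) : IsPGroup p (OO p H) :=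
  (Cfsg.Agent.Lib.Cores.pCore_isPGroup p).map _

theorem le_OO [Finite G] [Fact p.Prime] {H V : Subgroup G} (hVH : V ≤ H) (hV : IsPGroup p V)
    (hn : ∀ h ∈ H, ∀ v ∈ V, h * v * h⁻¹ ∈ V) : V ≤ OO p H := by
  have h2 : (V.subgroupOf H).Normal := ⟨fun n hn' g => hn g g.2 n hn'⟩
  have h3 : V.subgroupOf H ≤ Cfsg.pCore p H := Cfsg.Agent.Lib.Cores.le_pCore h2 hV.comap_subtype
  intro x hx
  exact ⟨⟨x, hVH hx⟩, h3 hx, rfl⟩

theorem conj_OO {H : Subgroup G} : ∀ h ∈ H, ∀ v ∈ OO p H, h * v * h⁻¹ ∈ OO p H := by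
  rintro h hh _ ⟨x, hx, rfl⟩
  have hnn : (Cfsg.pCore p H).Normal := Cfsg.Agent.Lib.Cores.pCore_normal_inst p
  exact ⟨_, hnn.conj_mem x hx ⟨h, hh⟩, rfl⟩

theorem le_normalizer_OO (H : Subgroup G) : H ≤ normalizer (OO p H : Set G) := by
  intro h hh
  rw [mem_normalizer_iff]
  intro x
  refine ⟨conj_OO h hh x, fun h1 => ?_⟩
  have h2 := conj_OO h⁻¹ (H.inv_mem hh) _ h1
  have e : h⁻¹ * (h * x * h⁻¹) * h⁻¹⁻¹ = x := by group
  rwa [e] at h2

theorem map_OO [Finite G] {H : Subgroup G} {φ : MulAut G} (hφ : ∀ x ∈ H, φ x ∈ H) : ∀ x ∈ OO p H, φ x ∈ OO p H := by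
  let f : H →* H := (φ.toMonoidHom.comp H.subtype).codRestrict H (fun y => hφ y y.2)
  have hf : Function.Injective f := by
    intro y z e
    have e' : φ y = φ z := Subtype.ext_iff.1 e
    exact Subtype.ext (φ.injective e')
  let τ : MulAut H := MulEquiv.ofBijective f (Finite.injective_iff_bijective.1 hf)
  rintro _ ⟨x, hx, rfl⟩
  have hch : (Cfsg.pCore p H).Characteristic := Cfsg.Agent.Lib.Cores.pCore_characteristic p
  have h2 : τ x ∈ Cfsg.pCore p H := by
    have h3 := Subgroup.characteristic_iff_map_eq.1 hch τ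
    rw [← h3]
    exact ⟨x, hx, rfl⟩
  exact ⟨τ x, h2, rfl⟩

/-- an automorphism fixing `V` fixes its normalizer -/
theorem map_normalizer [Finite G] {V : Subgroup G} {φ : MulAut G} (hφ : ∀ x ∈ V, φ x ∈ V) :
    ∀ x ∈ normalizer (V : Set G), φ x ∈ normalizer (V : Set G) := by
  have hle : V.map φ.toMonoidHom ≤ V := by
    rintro _ ⟨x, hx, rfl⟩
    exact hφ x hx
  have heq : V.map φ.toMonoidHom = V := by
    apply Subgroup.eq_of_le_of_card_ge hle
    exact (Nat.card_congr (V.equivMapOfInjective φ.toMonoidHom φ.injective).toEquiv).le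
  have key : ∀ x ∈ normalizer (V : Set G), ∀ v ∈ V, φ x * v * (φ x)⁻¹ ∈ V := by
    intro x hx v hv
    have h1 : v ∈ V.map φ.toMonoidHom := by rw [heq]; exact hv
    obtain ⟨w, hw, rfl⟩ := h1
    have h2 : φ x * φ w * (φ x)⁻¹ = φ (x * w * x⁻¹) := by rw [map_mul, map_mul, map_inv]
    show φ x * φ w * (φ x)⁻¹ ∈ V
    rw [h2]
    exact hφ _ ((mem_normalizer_iff.1 hx w).1 hw)
  intro x hx
  rw [mem_normalizer_iff]
  intro v
  refine ⟨key x hx v, fun h1 => ?_⟩
  have h2 := key x⁻¹ (inv_mem hx) _ h1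
  rw [map_inv] at h2
  have e : (φ x)⁻¹ * (φ x * v * (φ x)⁻¹) * (φ x)⁻¹⁻¹ = v := by group
  rwa [e] at h2

/-- **Radical `p`-subgroups.** A nontrivial `p`-subgroup `N₀` normalised by `K` has a radical overgroup `V` with `K` in
its normalizer, invariant under the automorphisms fixing `K`. -/
theorem exists_radical [Finite G] [Fact p.Prime] {K N₀ : Subgroup G} (hN : N₀ ≤ K)
    (hn : ∀ k ∈ K, ∀ v ∈ N₀, k * v * k⁻¹ ∈ N₀) (hp : IsPGroup p N₀) (h1 : N₀ ≠ ⊥) :
    ∃ V : Subgroup G, IsPGroup p V ∧ V ≠ ⊥ ∧ K ≤ normalizer (V : Set G) ∧ OO p (normalizer (V : Set G)) = V ∧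
      ∀ φ : MulAut G, (∀ k ∈ K, φ k ∈ K) → ∀ x ∈ V, φ x ∈ V := by
  classical
  set 𝒱 : Set (Subgroup G) := {V | IsPGroup p V ∧ V ≠ ⊥ ∧ K ≤ normalizer (V : Set G) ∧
    ∀ φ : MulAut G, (∀ k ∈ K, φ k ∈ K) → ∀ x ∈ V, φ x ∈ V} with h𝒱
  have hne : 𝒱.Nonempty := by
    refine ⟨OO p K, OO_isPGroup K, fun h2 => h1 ?_, le_normalizer_OO K, fun φ hφ => map_OO hφ⟩
    rw [eq_bot_iff, ← h2]
    exact le_OO hN hp hn
  obtain ⟨V, ⟨hV1, hV2, hV3, hV4⟩, hmax⟩ := Set.exists_max_image 𝒱 (fun V => Nat.card V) (Set.toFinite _) hne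
  have hle : V ≤ OO p (normalizer (V : Set G)) :=
    le_OO le_normalizer hV1 fun h hh v hv => (mem_normalizer_iff.1 hh v).1 hv
  have hmem : OO p (normalizer (V : Set G)) ∈ 𝒱 := by
    refine ⟨OO_isPGroup _, fun h2 => hV2 ?_, hV3.trans (le_normalizer_OO _), fun φ hφ =>
      map_OO (map_normalizer (hV4 φ hφ))⟩
    rw [eq_bot_iff, ← h2]
    exact hle
  exact ⟨V, hV1, hV2, hV3, (Subgroup.eq_of_le_of_card_ge hle (hmax _ hmem)).symm, hV4⟩

/-- a radical subgroup inside a normalised `p`-subgroup -/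
theorem eq_of_radical [Finite G] [Fact p.Prime] {V U : Subgroup G} (hV : OO p (normalizer (V : Set G)) = V)
    (hU : IsPGroup p U) (hVU : V ≤ U) (hn : ∀ g ∈ normalizer (V : Set G), ∀ u ∈ U, g * u * g⁻¹ ∈ U) : V = U := by
  have h1 : normalizer (V : Set G) ⊓ U ≤ V := by
    conv_rhs => rw [← hV]
    refine le_OO inf_le_left (hU.to_le inf_le_right) fun h hh v hv => ?_
    exact mem_inf.2 ⟨mul_mem (mul_mem hh (mem_inf.1 hv).1) (inv_mem hh), hn h hh v (mem_inf.1 hv).2⟩
  by_contra hne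
  have hlt : V.subgroupOf U < ⊤ := by
    rw [lt_top_iff_ne_top]
    intro h2
    rw [Subgroup.subgroupOf_eq_top] at h2
    exact hne (le_antisymm hVU h2)
  have hnil : Group.IsNilpotent U := hU.isNilpotent
  have h3 := Group.normalizerCondition_of_isNilpotent (G := U) (V.subgroupOf U) hlt
  obtain ⟨u, hu1, hu2⟩ := SetLike.exists_of_lt h3
  apply hu2
  show (u : G) ∈ V
  apply h1
  refine mem_inf.2 ⟨?_, u.2⟩
  rw [mem_normalizer_iff]
  intro x
  constructor
  · intro hx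
    exact (mem_normalizer_iff.1 hu1 ⟨x, hVU hx⟩).1 hx
  · intro hx
    have hxU : x ∈ U := by
      have h4 := mul_mem (mul_mem (inv_mem u.2) (hVU hx)) u.2
      have e : (u : G)⁻¹ * (u * x * (u : G)⁻¹) * u = x := by group
      rwa [e] at h4
    exact (mem_normalizer_iff.1 hu1 ⟨x, hxU⟩).2 hx

end core

section sys

variable {M : CoxeterMatrix (Fin 2)} {W : Type*} [Group W] {cs : CoxeterSystem M W} {C : Type*} {Δ : Bldg cs C}
  [F : OppRes.Cox cs] {G : Type*} [Group G] [MulAction G C] {p : ℕ} (S : Sys Δ G p)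

local prefix:100 "ℓ" => cs.length

include S

/-- **Borel–Tits, rank two.** -/
theorem bt {V : Subgroup G} (hV : IsPGroup p V) (h1 : V ≠ ⊥) :
    (∃ x, V ≤ S.U x ∧ ∀ g ∈ normalizer (V : Set G), g • x = x) ∨
      (∃ x i, V ≤ S.UR (Δ.Pan i x) ∧ ∀ g ∈ normalizer (V : Set G), g • x ∈ Δ.Pan i x) := by
  set X : Set C := {x | ∀ v ∈ V, v • x = x} with hXdef
  have hX : Good Δ X := by
    refine ⟨S.conv_fix (V : Set G), fun x hx y hy hxy => ?_⟩
    apply h1
    rw [Subgroup.eq_bot_iff_forall]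
    intro v hv
    exact S.free x y hxy v (S.mem_U_of_isPGroup hV hv (hx v hv)) (hy v hv)
  have hne : X.Nonempty := S.exists_fix V hV
  have hpan : ∀ x ∈ X, ∀ y ∈ X, ∀ i, Δ.δ x y = cs.simple i → Δ.Pan i x ⊆ X := by
    intro x hx y hy i hi z hz v hv
    exact S.pan x y i hi v (S.mem_U_of_isPGroup hV hv (hx v hv)) (hy v hv) z hz
  have hN : ∀ g ∈ normalizer (V : Set G), ∀ a ∈ X, g • a ∈ X := by
    intro g hg a ha v hv
    have h2 := (mem_normalizer_iff''.1 hg v).1 hv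
    have h3 := ha _ h2
    rw [mul_smul, mul_smul, inv_smul_eq_iff] at h3
    exact h3
  have hN' : ∀ g ∈ normalizer (V : Set G), ∀ a ∈ X, ∃ b ∈ X, g • b = a := fun g hg a ha =>
    ⟨g⁻¹ • a, hN g⁻¹ (inv_mem hg) a ha, smul_inv_smul g a⟩
  rcases centre hX hne hpan with ⟨c, hc, h2⟩ | ⟨c, hc, i, hi, h2⟩
  · left
    exact ⟨c, S.max c V hV hc, fun g hg => h2 (fun a => g • a) (S.iso g) (hN g hg) (hN' g hg)⟩
  · right
    refine ⟨c, i, fun v hv y hy => S.mem_U_of_isPGroup hV hv (hi hy v hv), fun g hg =>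
      h2 (fun a => g • a) (S.iso g) (hN g hg) (hN' g hg)⟩

/-- the radical subgroups -/
theorem radical_cases [Finite G] [Fact p.Prime] {V : Subgroup G} (hV : IsPGroup p V) (h1 : V ≠ ⊥)
    (hr : OO p (normalizer (V : Set G)) = V) : (∃ x, V = S.U x) ∨ ∃ x i, V = S.UR (Δ.Pan i x) := by
  rcases bt S hV h1 with ⟨x, h2, h3⟩ | ⟨x, i, h2, h3⟩
  · left
    refine ⟨x, eq_of_radical hr (S.isP x) h2 fun g hg u hu => ?_⟩
    have h4 := S.conj_mem_U hu g
    rwa [h3 g hg] at h4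
  · right
    refine ⟨x, i, eq_of_radical hr (S.UR_isP ⟨x, Δ.self_mem_Pan i x⟩) h2 fun g hg u hu => ?_⟩
    have h4 : g • Δ.Pan i x = Δ.Pan i x := by
      rw [Δ.Pan_eq_Res, S.smul_Res, ← Δ.Pan_eq_Res, ← Δ.Pan_eq_Res]
      exact Δ.Pan_eq_of_mem (h3 g hg)
    have h5 := (S.conj_mem_UR_iff (Q := Δ.Pan i x) (u := u) (g := g)).2 hu
    rwa [h4] at h5

/-- transitivity on the chambers -/
theorem exists_smul (hth : Δ.Thick) (n : ℕ) : ∀ x y : C, ℓ (Δ.δ x y) = n → ∃ g : G, g • x = y := by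
  induction n with
  | zero =>
    intro x y h
    rw [cs.length_eq_zero_iff, Δ.eq_one] at h
    exact ⟨1, by rw [one_smul, h]⟩
  | succ n ih =>
    intro x y h
    have h1 : Δ.δ x y ≠ 1 := by
      intro h1
      rw [h1, cs.length_one] at h
      omega
    obtain ⟨i, hi⟩ := cs.exists_leftDescent_of_ne_one h1
    have hi' : ℓ (cs.simple i * Δ.δ x y) < ℓ (Δ.δ x y) := hi
    obtain ⟨x', hx1, hx2⟩ := exists_first Δ hi'
    have h2 := cs.length_simple_mul (Δ.δ x y) i
    obtain ⟨g, hg⟩ := ih x' y (by rw [hx2]; omega)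
    -- a third chamber
    obtain ⟨a, b, hab, ha, hb⟩ := hth x i
    obtain ⟨z, hz, hzx⟩ : ∃ z, Δ.δ x z = cs.simple i ∧ z ≠ x' := by
      by_cases h3 : a = x'
      · exact ⟨b, hb, fun h4 => hab (h3.trans h4.symm)⟩
      · exact ⟨a, ha, h3⟩
    have h3 : Δ.δ z x = cs.simple i := Δ.δ_symm_simple hz
    have h4 : Δ.δ z x' = cs.simple i :=
      Δ.δ_eq_of_mem_Pan (Δ.mem_Pan_of_δ hz) (Δ.mem_Pan_of_δ hx1) hzx
    obtain ⟨u, -, hu⟩ := S.exists_move (x := z) (z := x) (z' := x') (by rw [h3, h4])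
    exact ⟨g * u, by rw [mul_smul, hu, hg]⟩

/-- `|U x| ≥ 3` -/
theorem three_le_card_U [Finite G] (hth : Δ.Thick) (x : C) : 3 ≤ Nat.card (S.U x) := by
  have hs : cs.simple 0 ≠ cs.simple 1 := fun h => by
    have := F.inj h
    omega
  have hlen : ℓ (cs.simple 0 * cs.simple 1) = ℓ (cs.simple 0) + ℓ (cs.simple 1) := by
    rw [cs.length_simple, cs.length_simple]
    have h1 := cs.length_mul_simple (cs.simple 0) 1
    rw [cs.length_simple] at h1
    rcases h1 with h1 | h1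
    · exact h1
    · exfalso
      have h2 : ℓ (cs.simple 0 * cs.simple 1) = 0 := by omega
      rw [cs.length_eq_zero_iff] at h2
      apply hs
      rw [← mul_left_inj (cs.simple 1), h2, cs.simple_mul_simple_self]
  obtain ⟨a, a', haa, ha, ha'⟩ := hth x 0
  obtain ⟨b, b', hbb, hb, hb'⟩ := hth a 1
  obtain ⟨b'', -, -, hb'', -⟩ := hth a' 1
  have h1 : Δ.δ x b = cs.simple 0 * cs.simple 1 := Δ.δ_mul_of ha hb hlen
  have h2 : Δ.δ x b' = cs.simple 0 * cs.simple 1 := Δ.δ_mul_of ha hb' hlen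
  have h3 : Δ.δ x b'' = cs.simple 0 * cs.simple 1 := Δ.δ_mul_of ha' hb'' hlen
  have h4 : b ≠ b'' := by
    rintro rfl
    exact haa (Δ.between_unique hlen ha hb ha' hb'')
  have h5 : b' ≠ b'' := by
    rintro rfl
    exact haa (Δ.between_unique hlen ha hb' ha' hb'')
  obtain ⟨u2, hu2, hu2'⟩ := S.exists_move (x := x) (z := b) (z' := b') (by rw [h1, h2])
  obtain ⟨u3, hu3, hu3'⟩ := S.exists_move (x := x) (z := b) (z' := b'') (by rw [h1, h3])
  let f : Fin 3 → S.U x := ![1, ⟨u2, hu2⟩, ⟨u3, hu3⟩]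
  have hf : Function.Injective fun k => ((f k : G) • b : C) := by
    have e0 : ((f 0 : G) • b : C) = b := one_smul _ _
    have e1 : ((f 1 : G) • b : C) = b' := hu2'
    have e2 : ((f 2 : G) • b : C) = b'' := hu3'
    intro k l hkl
    fin_cases k <;> fin_cases l <;> simp only at hkl ⊢ <;>
      first
        | rfl
        | (exfalso
           first
             | exact hbb (e0.symm.trans (hkl.trans e1))
             | exact h4 (e0.symm.trans (hkl.trans e2))
             | exact hbb (e0.symm.trans (hkl.symm.trans e1))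
             | exact h4 (e0.symm.trans (hkl.symm.trans e2))
             | exact h5 (e1.symm.trans (hkl.trans e2))
             | exact h5 (e1.symm.trans (hkl.symm.trans e2)))
  have hf' : Function.Injective f := fun k l h => hf (by show ((f k : G) • b : C) = (f l : G) • b; rw [h])
  have h6 := Nat.card_le_card_of_injective f hf'
  rwa [Nat.card_eq_fintype_card (α := Fin 3), Fintype.card_fin] at h6

/-- `3 |C| ≤ |G|` -/
theorem three_mul_card_le [Finite G] [Finite C] (hth : Δ.Thick) : 3 * Nat.card C ≤ Nat.card G := by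
  rcases isEmpty_or_nonempty C with hC | ⟨⟨x⟩⟩
  · rw [Nat.card_of_isEmpty, mul_zero]
    exact Nat.zero_le _
  have htr : MulAction.IsPretransitive G C := ⟨fun x y => exists_smul S hth _ x y rfl⟩
  have h1 := MulAction.index_stabilizer_of_transitive G x
  have h2 := (MulAction.stabilizer G x).card_mul_index
  have h3 : 3 ≤ Nat.card (MulAction.stabilizer G x) := by
    refine (three_le_card_U S hth x).trans ?_
    exact Subgroup.card_le_of_le fun u hu => S.fix x u hu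
  rw [← h2, h1]
  exact Nat.mul_le_mul_right _ h3

/-- **The canonical parabolic subgroups.** -/
theorem exists_pars_sys [Finite G] [Finite C] [Fact p.Prime] (hth : Δ.Thick) (hs : IsSimpleGroup G)
    (hna : ¬ ∀ a b : G, a * b = b * a) : ∃ 𝓟 : Set (Subgroup G), Cfsg.Agent.H12.EP.BT.Pars p G 𝓟 := by
  classical
  let f : C ⊕ (C × Fin 2) → Subgroup G := fun t =>
    Sum.elim (fun x => normalizer (S.U x : Set G)) (fun t => normalizer (S.UR (Δ.Pan t.2 t.1) : Set G)) t
  refine ⟨{P | P ≠ ⊤ ∧ P ∈ Set.range f}, ?_, fun P hP => hP.1, ?_⟩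
  · have h1 : {P | P ≠ ⊤ ∧ P ∈ Set.range f} ⊆ Set.range f := fun P hP => hP.2
    refine (Set.ncard_le_ncard h1 (Set.toFinite _)).trans ?_
    rw [← Set.image_univ]
    refine (Set.ncard_image_le (Set.toFinite _)).trans ?_
    rw [Set.ncard_univ, Nat.card_sum, Nat.card_prod, Nat.card_eq_fintype_card (α := Fin 2), Fintype.card_fin]
    have := three_mul_card_le S hth
    omega
  · intro K N₀ hN hn hp h1
    obtain ⟨V, hV1, hV2, hV3, hV4, hV5⟩ := exists_radical hN hn hp h1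
    refine ⟨normalizer (V : Set G), ⟨fun htop => ?_, ?_⟩, hV3, fun φ hφ => map_normalizer (hV5 φ hφ)⟩
    · have hVn : V.Normal := Subgroup.normalizer_eq_top_iff.1 htop
      rcases hVn.eq_bot_or_eq_top with h2 | h2
      · exact hV2 h2
      · have h6 : IsPGroup p G := (h2 ▸ hV1 : IsPGroup p (⊤ : Subgroup G)).of_equiv Subgroup.topEquiv
        have h7 : Group.IsSolvable G := by
          have := h6.isNilpotent
          infer_instance
        exact hna (IsSimpleGroup.comm_iff_isSolvable.2 h7)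
    · rcases radical_cases S hV1 hV2 hV4 with ⟨x, h2⟩ | ⟨x, i, h2⟩
      · exact ⟨Sum.inl x, by rw [h2]; rfl⟩
      · exact ⟨Sum.inr (x, i), by rw [h2]; rfl⟩

end sys

end Cfsg.Agent.H270.EPU
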